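import Cfsg.Agent.H78.CTDPres.Exact

/-!
The block subgroup and the distinguished elements used in the presentation.
-/

set_option autoImplicit false
set_option linter.unusedSectionVars false

namespace Cfsg.Agent.H78.CTD

open Matrix Cfsg.Agent.H78.CTA Cfsg.Agent.H64.SLIndex Cfsg.Agent.H70.AutPSL
open Cfsg.Agent.H5 (qPlus orth eich)

variable {F : Type*} [Field F] [Fintype F] {k : ℕ}

local notation "SL[" m "]" => Matrix.SpecialLinearGroup (Fin m) F

theorem rot_mono {n : ℕ} {i j : Fin n} (h : i ≠ j) :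
    ∃ c : Fin n → F, IsMono (rot i j : SL[n]) (Equiv.swap i j) c ∧ (∀ a, c a ≠ 0) ∧ c i = -1 ∧ c j = 1 ∧
      ∀ a, a ≠ i → a ≠ j → c a = 1 := by
  classical
  refine ⟨Function.update (1 : Fin n → F) i (-1), fun a b => ?_, fun a => ?_, by simp, by simp [Ne.symm h],
    fun a ha _ => by simp [ha]⟩
  · have hcol : ((rot i j : SL[n]) : Matrix (Fin n) (Fin n) F) *ᵥ Pi.single b 1 =
        Pi.single (Equiv.swap i j b) (Function.update (1 : Fin n → F) i (-1) b) := by
      by_cases hP : b = i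
      · subst hP; simpa using (rot_col (F := F) h).1
      by_cases hQ : b = j
      · subst hQ; rw [Equiv.swap_apply_right, Function.update_of_ne (Ne.symm h)]; exact (rot_col h).2
      rw [Equiv.swap_apply_of_ne_of_ne hP hQ]
      simp only [rot, mulVec_mul_sl, xt_mulVec h, xt_mulVec (Ne.symm h)]
      simp [hP, Ne.symm hP, Ne.symm hQ]
    have := congrFun hcol a
    rwa [Matrix.mulVec_single_one, Matrix.col_apply, Pi.single_apply] at this
  · by_cases ha : a = i
    · subst ha; simp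
    · simp [ha]

theorem low_u01' (t : F) :
    low (k+2) (u01 t) = xt (iP k) (iQ k) t ∧ low (k+2) (u10 t) = xt (iQ k) (iP k) t := by
  constructor
  · rw [xt_eq hPQ, u01, low_transvection]
    exact transvection_congr (Fin.ext (by simp [iP])) (Fin.ext (by simp [iQ])) t
  · rw [xt_eq hPQ.symm, u10, low_transvection]
    exact transvection_congr (Fin.ext (by simp [iQ])) (Fin.ext (by simp [iP])) t

theorem up_up_xt {i j : Fin (k+2)} (h : i ≠ j) (t : F) :
    up (up (SpecialLinearGroup.transvection h t)) = xt i.castSucc.castSucc j.castSucc.castSucc t := by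
  rw [up_transvection, up_transvection, ← xt_eq]

theorem up_low_commute (a : SL[k+2]) (b : SL[2]) : Commute (up (up a)) (low (k+2) b) := by
  have : Nontrivial (Fin (k+2)) := Fin.nontrivial_iff_two_le.mpr (by omega)
  have key : ∀ {i j : Fin (k+2)} (h : i ≠ j) (t : F), ∀ b, Commute (xt i.castSucc.castSucc j.castSucc.castSucc t) (low (k+2) b) := by
    intro i j h t b
    refine (Subgroup.mem_centralizer_singleton_iff.mp (mem_of_sl2 (low (k+2))
      (Subgroup.centralizer ({xt i.castSucc.castSucc j.castSucc.castSucc t} : Set SL[k+4]))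
      (fun u => ?_) (fun u => ?_) b)).symm
    all_goals rw [Subgroup.mem_centralizer_singleton_iff]
    · rw [(low_u01' u).1]
      exact xt_commute hPQ (fun e => h (by simpa [Fin.ext_iff] using e))
        (fun e => by have := congrArg Fin.val e; simp [iQ] at this; omega)
        (fun e => by have := congrArg Fin.val e; simp [iP] at this; omega) u t
    · rw [(low_u01' u).2]
      exact xt_commute hPQ.symm (fun e => h (by simpa [Fin.ext_iff] using e))
        (fun e => by have := congrArg Fin.val e; simp [iP] at this; omega)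
        (fun e => by have := congrArg Fin.val e; simp [iQ] at this; omega) u t
  have e : (Subgroup.centralizer ({low (k+2) b} : Set SL[k+4])).comap (up.comp up) = ⊤ := by
    refine Cfsg.Agent.H70.eq_top_of_transvection_mem _ fun i j h t => ?_
    rw [Subgroup.mem_comap, Subgroup.mem_centralizer_singleton_iff, MonoidHom.comp_apply, up_up_xt h]
    exact key h t b
  exact Subgroup.mem_centralizer_singleton_iff.mp
    (e ▸ Subgroup.mem_top a : a ∈ (Subgroup.centralizer ({low (k+2) b} : Set SL[k+4])).comap (up.comp up))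

/-- The block diagonal subgroup. -/
def blk : SL[k+2] × SL[2] →* SL[k+4] :=
  MonoidHom.noncommCoprod (up.comp up) (low (k+2)) up_low_commute

theorem blk_inl (a : SL[k+2]) : blk (a, (1 : SL[2])) = up (up a) := by
  show up (up a) * low (k+2) 1 = _
  rw [map_one, mul_one]

theorem blk_inr (b : SL[2]) : blk ((1 : SL[k+2]), b) = low (k+2) b := by
  show up (up 1) * low (k+2) b = _
  rw [map_one, map_one, one_mul]

theorem xt_mem_blk {i j : Fin (k+4)} (hs : Same i j) (t : F) : xt i j t ∈ (blk (F := F) (k := k)).range := by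
  by_cases h : i = j
  · subst h; rw [xt_self]; exact one_mem _
  rcases hs with ⟨a, b⟩ | ⟨a, b⟩
  · have h' : (⟨i.val, by omega⟩ : Fin (k+2)) ≠ ⟨j.val, by omega⟩ := fun e => h (Fin.ext (Fin.mk.inj_iff.mp e))
    exact ⟨(SpecialLinearGroup.transvection h' t, 1), by rw [blk_inl, up_up_xt]; rfl⟩
  · rcases (show (i = iP k ∧ j = iQ k) ∨ (i = iQ k ∧ j = iP k) by
      simp [iP, iQ, Fin.ext_iff] at h ⊢; omega) with ⟨rfl, rfl⟩ | ⟨rfl, rfl⟩
    · exact ⟨(1, u01 t), by rw [blk_inr, (low_u01' t).1]⟩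
    · exact ⟨(1, u10 t), by rw [blk_inr, (low_u01' t).2]⟩

theorem blk_range_le (H : Subgroup SL[k+4]) (h : ∀ i j t, Same i j → xt i j t ∈ H) :
    (blk (F := F) (k := k)).range ≤ H := by
  rintro _ ⟨⟨a, b⟩, rfl⟩
  have : Nontrivial (Fin (k+2)) := Fin.nontrivial_iff_two_le.mpr (by omega)
  show up (up a) * low (k+2) b ∈ H
  refine mul_mem ?_ (mem_of_sl2 (low (k+2)) H (fun t => ?_) (fun t => ?_) b)
  · have e : H.comap (up.comp up) = ⊤ := by
      refine Cfsg.Agent.H70.eq_top_of_transvection_mem _ fun i j hij t => ?_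
      show up (up _) ∈ H
      rw [up_up_xt hij]
      exact h _ _ _ (Or.inl ⟨by simp; omega, by simp; omega⟩)
    exact (e ▸ Subgroup.mem_top a : a ∈ H.comap (up.comp up))
  · rw [(low_u01' t).1]; exact h _ _ _ same_PQ.1
  · rw [(low_u01' t).2]; exact h _ _ _ same_PQ.2

theorem tau_ev (x : Fin (k+4) ⊕ Fin (k+4)) (t : F) :
    act (tau : OG F k) (ev x t) = ev (Equiv.swap (Sum.inl (iQ k)) (Sum.inr (iQ k)) x) t := by
  funext a
  rw [tau_apply]
  simp only [ev, Pi.single_apply, Equiv.swap_apply_eq_iff]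

theorem inv_ev {g : OG F k} {x y : Fin (k+4) ⊕ Fin (k+4) → F} (h : act g x = y) : act g⁻¹ y = x := by
  rw [← h, ← act_mul, inv_mul_cancel, act_one]

/-- The model of the element `V`. -/
noncomputable def VO : OG F k := phiO (low 1 wS) * fO (rot (iQ k) (iP k))

theorem VO_ev :
    (∀ a, a ≠ iP k → a ≠ iQ k → act (VO : OG F k) (ev (.inl a) 1) = ev (.inl a) 1 ∧
      act (VO : OG F k) (ev (.inr a) 1) = ev (.inr a) 1) ∧
    act (VO : OG F k) (ev (.inl (iQ k)) 1) = ev (.inr (iQ k)) 1 ∧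
    act (VO : OG F k) (ev (.inr (iQ k)) 1) = ev (.inl (iQ k)) 1 := by
  have hlow : low (k+2) (wS : SL[2]) = rot (iP k) (iQ k) := by
    simp only [wS, map_mul, (low_u01' _).1, (low_u01' _).2]; rfl
  obtain ⟨c, hc, hc0, cP, cQ, cO⟩ := rot_mono (F := F) (hPQ (k := k))
  obtain ⟨d, hd, hd0, dQ, dP, dO⟩ := rot_mono (F := F) (hPQ (k := k)).symm
  have e : ∀ x, act (VO : OG F k) x = act tau (act (fO (rot (iP k) (iQ k))) (act tau (act (fO (rot (iQ k) (iP k))) x))) := by
    intro x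
    rw [VO, phiO_apply, emb3_low, hlow]; rfl
  refine ⟨fun a hP hQ => ⟨?_, ?_⟩, ?_, ?_⟩
  · rw [e, fO_ev_inl hd, Equiv.swap_apply_of_ne_of_ne hQ hP, tau_ev,
      Equiv.swap_apply_of_ne_of_ne (by simpa using hQ) (by simp), fO_ev_inl hc,
      Equiv.swap_apply_of_ne_of_ne hP hQ, tau_ev, Equiv.swap_apply_of_ne_of_ne (by simpa using hQ) (by simp),
      dO a hQ hP, cO a hP hQ]
    simp
  · rw [e, fO_ev_inr hd hd0, Equiv.swap_apply_of_ne_of_ne hQ hP, tau_ev,
      Equiv.swap_apply_of_ne_of_ne (by simp) (by simpa using hQ), fO_ev_inr hc hc0,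
      Equiv.swap_apply_of_ne_of_ne hP hQ, tau_ev, Equiv.swap_apply_of_ne_of_ne (by simp) (by simpa using hQ),
      dO a hQ hP, cO a hP hQ]
    simp
  · rw [e, fO_ev_inl hd, Equiv.swap_apply_left, tau_ev,
      Equiv.swap_apply_of_ne_of_ne (by simp [hPQ]) (by simp), fO_ev_inl hc,
      Equiv.swap_apply_left, tau_ev, Equiv.swap_apply_left, dQ, cP]
    simp
  · rw [e, fO_ev_inr hd hd0, Equiv.swap_apply_left, tau_ev,
      Equiv.swap_apply_of_ne_of_ne (by simp) (by simp [hPQ]), fO_ev_inr hc hc0,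
      Equiv.swap_apply_left, tau_ev, Equiv.swap_apply_right, dQ, cP]
    simp

theorem WO_conj {π : SL[k+4]} {c : Fin (k+4) → F} (hπ : IsMono π (Equiv.swap 0 (iP k)) c)
    (hc : ∀ a, c a ≠ 0) (c0 : c 0 = 1) (cQ : c (iQ k) = 1) (s : SL[2]) :
    (fO π * VO * (fO π)⁻¹) * fO (low (k+2) s) * (fO π * VO * (fO π)⁻¹)⁻¹ = (phiO (low 1 s) : OG F k) := by
  set W : OG F k := fO π * VO * (fO π)⁻¹ with hW
  obtain ⟨hfix, hVl, hVr⟩ := VO_ev (F := F) (k := k)
  obtain ⟨h0l, h0r⟩ := hfix 0 hP0.symm hQ0.symm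
  have sQ : Equiv.swap 0 (iP k) (iQ k) = iQ k := Equiv.swap_apply_of_ne_of_ne hQ0 hPQ.symm
  have p0l : act (fO π : OG F k) (ev (.inl 0) 1) = ev (.inl (iP k)) 1 := by
    rw [fO_ev_inl hπ, Equiv.swap_apply_left, c0, one_mul]
  have p0r : act (fO π : OG F k) (ev (.inr 0) 1) = ev (.inr (iP k)) 1 := by
    rw [fO_ev_inr hπ hc, Equiv.swap_apply_left, c0, inv_one, one_mul]
  have pQl : act (fO π : OG F k) (ev (.inl (iQ k)) 1) = ev (.inl (iQ k)) 1 := by
    rw [fO_ev_inl hπ, sQ, cQ, one_mul]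
  have pQr : act (fO π : OG F k) (ev (.inr (iQ k)) 1) = ev (.inr (iQ k)) 1 := by
    rw [fO_ev_inr hπ hc, sQ, cQ, inv_one, one_mul]
  have wPl : act W (ev (.inl (iP k)) 1) = ev (.inl (iP k)) 1 := by
    rw [hW, act_mul, act_mul, inv_ev p0l, h0l, p0l]
  have wPr : act W (ev (.inr (iP k)) 1) = ev (.inr (iP k)) 1 := by
    rw [hW, act_mul, act_mul, inv_ev p0r, h0r, p0r]
  have wQl : act W (ev (.inl (iQ k)) 1) = ev (.inr (iQ k)) 1 := by
    rw [hW, act_mul, act_mul, inv_ev pQl, hVl, pQr]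
  have wQr : act W (ev (.inr (iQ k)) 1) = ev (.inl (iQ k)) 1 := by
    rw [hW, act_mul, act_mul, inv_ev pQr, hVr, pQl]
  have smul : ∀ x y, act W (ev x 1) = ev y 1 → ∀ t : F, act W (ev x t) = ev y t := fun x y h t => by
    rw [show ev x t = t • ev x (1 : F) by simp [ev, ← Pi.single_smul]]
    show (W : (Fin (k+4) ⊕ Fin (k+4) → F) ≃ₗ[F] (Fin (k+4) ⊕ Fin (k+4) → F)) (t • ev x 1) = _
    rw [map_smul]
    show t • act W (ev x 1) = _
    rw [h]; simp [ev, ← Pi.single_smul]
  refine DFunLike.congr_fun (hom_ext2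
    (f := (MulAut.conj W).toMonoidHom.comp (fO.comp (low (k+2)))) (g := phiO.comp (low 1))
    (fun t => ?_) (fun t => ?_)) s
  · show W * fO (low (k+2) (u01 t)) * W⁻¹ = phiO (low 1 (u01 t))
    rw [(low_u01' t).1, low_u01, (phiO_t12 t).1, (x_eq hPQ t).2, H5.eich_conj]
    show eich _ (act W _) (act W _) = _
    rw [wQr, smul _ _ wPl]
  · show W * fO (low (k+2) (u10 t)) * W⁻¹ = phiO (low 1 (u10 t))
    rw [(low_u01' t).2, low_u10, (phiO_t12 t).2, (x_eq hPQ.symm t).1, H5.eich_conj]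
    show eich _ (act W _) (act W _) = _
    rw [wQl, smul _ _ wPr]

end Cfsg.Agent.H78.CTD
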