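import Cfsg.Agent.H78.CTDPres.Mirror

/-!
A setting over the orthogonal one is exact up to one element.
-/

set_option autoImplicit false
set_option linter.unusedSectionVars false

namespace Cfsg.Agent.H78.CTD

open Matrix Cfsg.Agent.H78.CTA Cfsg.Agent.H64.SLIndex Cfsg.Agent.H70.AutPSL
open Cfsg.Agent.H5 (qPlus orth eich)
open QuadraticMap (polar)

variable {F : Type*} [Field F] [Fintype F] {G : Type*} [Group G] {k : ℕ}

local notation "SL[" m "]" => Matrix.SpecialLinearGroup (Fin m) F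

namespace Core

variable (D : Core F G k)

/-- A homomorphism carrying the setting to the orthogonal one. -/
structure Over (h : G →* OG F k) : Prop where
  f : ∀ g, h (D.f g) = fO g
  t12 : ∀ t, h (D.φ (t12 t)) = phiO (t12 t)
  t21 : ∀ t, h (D.φ (t21 t)) = phiO (t21 t)

variable {D} {h : G →* OG F k}

theorem Over.flip (O : D.Over h) : D.flip.Over ((MulAut.conj (mirror : OG F k)).toMonoidHom.comp h) where
  f g := by
    show mirror * h (D.f (it _ g)) * mirror⁻¹ = fO g
    rw [O.f, mirror_conj_f, it_it]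
  t12 t := by
    show mirror * h (D.φ (it 3 (CTA.t12 t))) * mirror⁻¹ = phiO (CTA.t12 t)
    rw [CTA.t12, it_transvection]
    show mirror * h (D.φ (CTA.t21 (-t))) * mirror⁻¹ = _
    rw [O.t21, (mirror_conj_phi _).2, neg_neg]; rfl
  t21 t := by
    show mirror * h (D.φ (it 3 (CTA.t21 t))) * mirror⁻¹ = phiO (CTA.t21 t)
    rw [CTA.t21, it_transvection]
    show mirror * h (D.φ (CTA.t12 (-t))) * mirror⁻¹ = _
    rw [O.t12, (mirror_conj_phi _).1, neg_neg]; rfl

theorem Over.y (O : D.Over h) (p q : Fin (k+4)) (t : F) :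
    h (D.y p q t) = (coreO (F := F) (k := k)).y p q t := by
  unfold Core.y
  split_ifs
  · exact map_one h
  · rw [map_mul, map_mul, map_inv, O.f]
    show _ * h (D.φ _) * _ = _
    rw [O.t12]; rfl

theorem Over.z (O : D.Over h) (p q : Fin (k+4)) (t : F) :
    h (D.z p q t) = (coreO (F := F) (k := k)).z p q t := by
  unfold Core.z Core.y
  split_ifs
  · exact map_one h
  · show h (D.f _ * D.φ (it 3 (CTA.t12 t)) * (D.f _)⁻¹) = fO _ * phiO (it 3 (CTA.t12 t)) * (fO _)⁻¹
    rw [map_mul, map_mul, map_inv, O.f, CTA.t12, it_transvection]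
    show _ * h (D.φ (CTA.t21 (-t))) * _ = _
    rw [O.t21]; rfl

theorem Over.hh0 (O : D.Over h) (s : SL[2]) : h (D.hh0 s) = phiO (low 1 s) := by
  refine DFunLike.congr_fun (hom_ext2 (f := h.comp D.hh0) (g := phiO.comp (low 1))
    (fun t => ?_) (fun t => ?_)) s
  · show h (D.φ (low 1 (u01 t))) = phiO (low 1 (u01 t))
    rw [low_u01, O.t12]
  · show h (D.φ (low 1 (u10 t))) = phiO (low 1 (u10 t))
    rw [low_u10, O.t21]

theorem Over.y_UpU (O : D.Over h) (p q : Fin (k+4)) (t : F) : UpU (h (D.y p q t)) := by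
  rw [O.y]
  by_cases e : p = q
  · subst e; rw [Core.y, if_pos rfl]; exact UpU.one
  rw [y_eq p q e]
  constructor
  · intro x hx
    funext a
    simp only [act]
    rw [H5.eich_apply (q_ev _ _) (by rw [polar_ev_l]; simp [ev])]
    simp [polar_ev_l, q_ev, hx]
  · intro x a
    simp only [act]
    rw [H5.eich_apply (q_ev _ _) (by rw [polar_ev_l]; simp [ev])]
    simp [polar_ev_l, q_ev, ev]

theorem Over.z_KeepR (O : D.Over h) (p q : Fin (k+4)) (t : F) : KeepR (h (D.z p q t)) := by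
  rw [O.z]
  by_cases e : p = q
  · subst e; rw [Core.z, Core.y, if_pos rfl]; exact KeepR.one
  rw [z_eq p q e]
  intro x hx a
  simp only [act]
  rw [H5.eich_apply (q_ev _ _) (by rw [polar_ev_r]; simp [ev])]
  simp [polar_ev_r, q_ev, ev, hx]

theorem Over.Ys_UpU (O : D.Over h) {S : Finset (Fin (k+4))} {g : G} (hg : g ∈ D.Ys S) : UpU (h g) := by
  refine closure_left D.Ys_inv (P := fun g => UpU (h g)) (by rw [map_one]; exact UpU.one) ?_ g hg
  rintro _ ⟨p, -, q, -, t, rfl⟩ g ih
  rw [map_mul]; exact (O.y_UpU p q t).mul ih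

theorem Over.Zs_KeepR (O : D.Over h) {S : Finset (Fin (k+4))} {g : G} (hg : g ∈ D.flip.Ys S) :
    KeepR (h g) := by
  refine closure_left D.flip.Ys_inv (P := fun g => KeepR (h g)) (by rw [map_one]; exact KeepR.one) ?_ g hg
  rintro _ ⟨p, -, q, -, t, rfl⟩ g ih
  rw [map_mul]; exact (O.z_KeepR p q t).mul ih

theorem Over.l_apply (O : D.Over h) (g : SL[k+4]) (u : Fˣ) (x : Fin (k+4) ⊕ Fin (k+4) → F) (a : Fin (k+4)) :
    act (h (D.f g * D.hh0 (D2 u))) x (.inl a) =
      ((g : Matrix (Fin (k+4)) (Fin (k+4)) F) *ᵥ fun b => (dd u b : F) * x (.inl b)) a ∧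
    act (h (D.f g * D.hh0 (D2 u))) x (.inr a) =
      ((it (k+4) g : Matrix (Fin (k+4)) (Fin (k+4)) F) *ᵥ fun b => (((dd u b)⁻¹ : Fˣ) : F) * x (.inr b)) a := by
  rw [map_mul, O.f, O.hh0, act_mul, fO_inl, fO_inr]
  constructor <;> congr 2 <;> funext b
  · exact (phiO_D2 u x b).1
  · exact (phiO_D2 u x b).2

theorem Over.Ls_KeepR (O : D.Over h) {g : G} (hg : g ∈ D.Ls Finset.univ) : KeepR (h g) := by
  obtain ⟨s, u, rfl⟩ := D.Ls_univ_eq hg
  intro x hx a
  rw [(O.l_apply s u x a).1]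
  simp [hx, Matrix.mulVec, dotProduct]

theorem Over.Ys_eq_one (O : D.Over h) {y : G} (hy : y ∈ D.Ys Finset.univ) (hk : KeepR (h y)) : y = 1 := by
  classical
  obtain ⟨m, rfl⟩ := D.Ys_le_range hy
  have hU : ∀ m, UpU (h (D.yPi m)) := fun m => by
    refine O.Ys_UpU (S := Finset.univ) ?_
    have : D.yPi.range ≤ D.Ys Finset.univ := by
      rw [yPi, MonoidHom.noncommPiCoprod_range]
      refine iSup_le fun x => ?_
      rintro _ ⟨t, rfl⟩
      exact D.y_mem_Ys (Finset.mem_univ _) (Finset.mem_univ _) _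
    exact this ⟨m, rfl⟩
  let α : (x : (q : Fin (k+4)) × Fin q.val) →
      (((q : Fin (k+4)) × Fin q.val) → Multiplicative F) →* Multiplicative F := fun x =>
    { toFun := fun m => Multiplicative.ofAdd
        (act (h (D.yPi m)) (ev (.inr x.1) 1) (.inl ⟨x.2.val, x.2.isLt.trans x.1.isLt⟩))
      map_one' := by rw [map_one, map_one, act_one]; simp [ev]
      map_mul' := fun m m' => by
        rw [map_mul, map_mul, (hU m).add (hU m'), ofAdd_add] }
  suffices hm : m = 1 by rw [hm, map_one]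
  funext x
  have hx : α x = Pi.evalMonoidHom _ x := by
    refine MonoidHom.functions_ext (Multiplicative F) _ _ fun i (c : Multiplicative F) => ?_
    show Multiplicative.ofAdd (act (h (D.yPi (Pi.mulSingle i c))) _ _) = (Pi.mulSingle i c : ((q : Fin (k+4)) × Fin q.val) → Multiplicative F) x
    rw [yPi, MonoidHom.noncommPiCoprod_mulSingle]
    show Multiplicative.ofAdd (act (h (D.y _ _ _)) _ _) = _
    have hne : ∀ x : (q : Fin (k+4)) × Fin q.val,
        (⟨x.2.val, x.2.isLt.trans x.1.isLt⟩ : Fin (k+4)) ≠ x.1 := fun x e => by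
      have := congrArg Fin.val e
      have := x.2.isLt
      simp at *
      omega
    rw [O.y, y_eq _ _ (hne i)]
    simp only [act]
    rw [H5.eich_apply (q_ev _ _) (by rw [polar_ev_l]; simp [ev])]
    simp only [polar_ev_l, q_ev, zero_mul, zero_smul, sub_zero, Pi.add_apply, Pi.sub_apply, Pi.smul_apply,
      smul_eq_mul, ev, one_mul, Pi.single_apply, Sum.inr.injEq, Sum.inl.injEq, reduceCtorEq, if_false, zero_add]
    by_cases e : x = i
    · subst e; simp [Ne.symm (hne x)]
      exact fun h => absurd h (hne x)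
    · rw [Pi.mulSingle_eq_of_ne e]
      refine congrArg Multiplicative.ofAdd ?_
      obtain ⟨q, p⟩ := x
      obtain ⟨q', p'⟩ := i
      have hp := p.isLt
      have hp' := p'.isLt
      have : ¬ (q' = q ∧ p.val = p'.val) := by
        rintro ⟨rfl, e'⟩; exact e (by rw [Fin.ext e'])
      have : ¬ (p'.val = q.val ∧ p.val = q'.val) := by omega
      simp [Fin.ext_iff]
      split_ifs <;> first | rfl | (exfalso; omega) | (simp; done) | (exfalso; simp_all [Fin.ext_iff]; done)
  have h0 : α x m = Multiplicative.ofAdd 0 :=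
    congrArg Multiplicative.ofAdd (hk _ (fun a => by simp [ev]) _)
  rw [hx] at h0
  exact h0

theorem Over.ker_le (O : D.Over h) {x : G} (hx : x ∈ Subgroup.closure D.gens) (h1 : h x = 1) :
    x = 1 ∨ ∃ g : SL[k+4], (g : Matrix (Fin (k+4)) (Fin (k+4)) F) =
      Matrix.diagonal (fun i => ((dd (-1 : Fˣ) i : Fˣ) : F)) ∧ x = D.f g * D.hh0 (D2 (-1)) := by
  obtain ⟨z, hz, y, hy, z', hz', l, hl, rfl⟩ := D.closure_subset hx
  have hy' : h y = h z⁻¹ * h l⁻¹ * h z'⁻¹ := by
    simp only [map_mul] at h1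
    simp only [map_inv]
    have e : h y = (h z)⁻¹ * (h z * h y * h z' * h l) * (h l)⁻¹ * (h z')⁻¹ := by group
    rw [h1, mul_one] at e
    exact e
  have hy1 : y = 1 := O.Ys_eq_one hy (hy' ▸ ((O.Zs_KeepR (inv_mem hz)).mul (O.Ls_KeepR (inv_mem hl))).mul
    (O.Zs_KeepR (inv_mem hz')))
  subst hy1
  rw [mul_one] at h1 ⊢
  have hZ : z * z' = 1 := by
    refine O.flip.Ys_eq_one (mul_mem hz hz') ?_
    have e : h (z * z') = h l⁻¹ := by
      rw [map_mul] at h1
      rw [map_inv]
      exact eq_inv_of_mul_eq_one_left h1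
    intro x hx a
    show act (mirror * h (z * z') * mirror⁻¹) x (.inl a) = 0
    obtain ⟨g, u, hl'⟩ := D.Ls_univ_eq (inv_mem hl)
    rw [e, hl', mirror_inv, act_mul, act_mul, mirror_l, (O.l_apply g u _ a).2]
    simp [mirror_r, hx, Matrix.mulVec, dotProduct]
  rw [hZ, one_mul] at h1 ⊢
  obtain ⟨g, u, rfl⟩ := D.Ls_univ_eq hl
  have hg : ∀ a b, (g : Matrix (Fin (k+4)) (Fin (k+4)) F) a b * (dd u b : F) = if a = b then 1 else 0 := by
    intro a b
    have := (O.l_apply g u (ev (.inl b) 1) a).1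
    rw [h1, act_one] at this
    simp [ev, Pi.single_apply, Matrix.mulVec, dotProduct] at this
    exact this.symm
  have hgm : (g : Matrix (Fin (k+4)) (Fin (k+4)) F) = Matrix.diagonal (fun i => (((dd u i)⁻¹ : Fˣ) : F)) := by
    ext a b
    have := hg a b
    by_cases e : a = b
    · subst e
      rw [if_pos rfl] at this
      rw [Matrix.diagonal_apply_eq]
      exact (eq_inv_of_mul_eq_one_left this).trans (Units.val_inv_eq_inv_val _).symm
    · rw [if_neg e] at this
      rw [Matrix.diagonal_apply_ne _ e]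
      exact (mul_eq_zero.mp this).resolve_right (Units.ne_zero _)
  have hu : (u : F) * u = 1 := by
    have hd := g.2
    rw [hgm, Matrix.det_diagonal] at hd
    rw [show (fun i : Fin (k+4) => (((dd u i)⁻¹ : Fˣ) : F)) = fun i => (((dd u i)⁻¹ : Fˣ) : F) from rfl,
      Fin.prod_univ_castSucc, Fin.prod_univ_castSucc] at hd
    simp [dd, show ∀ i : Fin (k+2), ¬ k + 2 ≤ i.val from fun i => by omega] at hd
    field_simp at hd
    linear_combination (-1 : F) * hd
  rcases mul_self_eq_one_iff.mp hu with e | e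
  · left
    obtain rfl : u = 1 := Units.ext e
    have : g = 1 := Subtype.ext (by
      rw [hgm, Matrix.SpecialLinearGroup.coe_one]
      ext a b
      simp [dd, Matrix.diagonal_apply, Matrix.one_apply])
    rw [this, map_one, map_one, map_one, one_mul]
  · right
    obtain rfl : u = -1 := Units.ext (by rw [e, Units.val_neg, Units.val_one])
    exact ⟨g, by rw [hgm]; congr 1; funext i; simp only [dd]; split_ifs <;> simp, rfl⟩

theorem Over.image (O : D.Over h) : (Subgroup.closure D.gens).map h = commutator (OG F k) := by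
  refine le_antisymm ?_ ?_
  · rw [MonoidHom.map_closure, Subgroup.closure_le]
    rintro _ ⟨a, (⟨g, rfl⟩ | ⟨t, rfl⟩) | ⟨t, rfl⟩, rfl⟩
    · rw [O.f]; exact fO_mem g
    · exact gens_mem (Or.inl (Or.inr ⟨t, (O.t12 t).symm⟩))
    · exact gens_mem (Or.inr ⟨t, (O.t21 t).symm⟩)
  · refine commutator_le_closure.trans ?_
    rw [MonoidHom.map_closure]
    refine Subgroup.closure_mono ?_
    rintro _ ((⟨g, rfl⟩ | ⟨t, rfl⟩) | ⟨t, rfl⟩)
    · exact ⟨_, Or.inl (Or.inl ⟨g, rfl⟩), O.f g⟩
    · exact ⟨_, Or.inl (Or.inr ⟨t, rfl⟩), O.t12 t⟩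
    · exact ⟨_, Or.inr ⟨t, rfl⟩, O.t21 t⟩

end Core

end Cfsg.Agent.H78.CTD
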