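import Cfsg.Agent.H81.SLnPres.TwoGen
import Cfsg.Agent.H70.SLTwoGen
import Cfsg.Agent.H78.CTD.Main

/-!
`SL_m × SL_2` is generated by two elements.
-/

set_option autoImplicit false
set_option linter.unusedSectionVars false

namespace Cfsg.Agent.H78.CTDPres

open Matrix Cfsg.Agent.H78.CTA

variable {F : Type*} [Field F] [Fintype F]

local notation "SL[" m "]" => Matrix.SpecialLinearGroup (Fin m) F

theorem eq_top_of_noncentral {n : ℕ} (hs : IsSimpleGroup (Matrix.ProjectiveSpecialLinearGroup (Fin n) F))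
    (hperf : commutator SL[n] = ⊤) (N : Subgroup SL[n]) [N.Normal] (h : ¬ N ≤ Subgroup.center SL[n]) :
    N = ⊤ := by
  let π := QuotientGroup.mk' (Subgroup.center SL[n])
  rcases hs.eq_bot_or_eq_top_of_normal (N.map π)
    (Subgroup.Normal.map inferInstance π (QuotientGroup.mk'_surjective _)) with h' | h'
  · refine absurd (fun x hx => ?_) h
    have : π x ∈ N.map π := ⟨x, hx, rfl⟩
    rw [h', Subgroup.mem_bot] at this
    exact (QuotientGroup.eq_one_iff x).mp this
  · rw [eq_top_iff, ← hperf]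
    refine Subgroup.Normal.commutator_le_of_self_sup_commutative_eq_top (H := Subgroup.center SL[n]) ?_ ⟨⟨fun a b => ?_⟩⟩
    · rw [← QuotientGroup.ker_mk' (Subgroup.center SL[n]), ← Subgroup.comap_map_eq, h', Subgroup.comap_top]
    · exact Subtype.ext (Subgroup.mem_center_iff.mp b.2 a)

theorem eq_top_of_proj {A B : Type*} [Group A] [Group B] (H : Subgroup (A × B))
    (hA : ∀ a : A, (a, (1 : B)) ∈ H) (hB : H.map (MonoidHom.snd A B) = ⊤) : H = ⊤ := by
  rw [eq_top_iff]
  rintro ⟨a, b⟩ -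
  obtain ⟨⟨a', b'⟩, h, rfl⟩ : b ∈ H.map (MonoidHom.snd A B) := hB ▸ Subgroup.mem_top b
  have := H.mul_mem (hA (a * a'⁻¹)) h
  simpa using this

theorem proj_top {A B : Type*} [Group A] [Group B] (s : Set (A × B))
    (h : Subgroup.closure (Prod.snd '' s) = ⊤) : (Subgroup.closure s).map (MonoidHom.snd A B) = ⊤ := by
  rw [MonoidHom.map_closure]; exact h

/-- The two kernels of a subgroup of a product. -/
theorem kernels {A B : Type*} [Group A] [Group B] (H : Subgroup (A × B))
    (hA : H.map (MonoidHom.fst A B) = ⊤) :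
    (H.comap (MonoidHom.inl A B)).Normal := by
  constructor
  intro x hx g
  obtain ⟨⟨g1, g2⟩, hg, rfl⟩ : g ∈ H.map (MonoidHom.fst A B) := hA ▸ Subgroup.mem_top g
  have := H.mul_mem (H.mul_mem hg hx) (H.inv_mem hg)
  show (g1 * x * g1⁻¹, (1 : B)) ∈ H
  simpa using this

theorem exists_pair_big (k : ℕ) (hk : 1 ≤ k) :
    ∃ g₁ g₂ : SL[k+2] × SL[2], Subgroup.closure {g₁, g₂} = ⊤ := by
  classical
  obtain ⟨a₁, a₂, ha⟩ := Cfsg.Agent.H81.SLnPres.exists_two_gen (F := F) k
  obtain ⟨u₁, u₂, hu⟩ := Cfsg.Agent.H81.SLnPres.exists_two_gen (F := F) 0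
  refine ⟨(a₁, u₁), (a₂, u₂), ?_⟩
  set H := Subgroup.closure ({(a₁, u₁), (a₂, u₂)} : Set (SL[k+2] × SL[2]))
  have hA : H.map (MonoidHom.fst _ _) = ⊤ := by
    rw [MonoidHom.map_closure, Set.image_pair]; exact ha
  have hB : H.map (MonoidHom.snd _ _) = ⊤ := by
    rw [MonoidHom.map_closure, Set.image_pair]; exact hu
  set N := H.comap (MonoidHom.inl SL[k+2] SL[2]) with hN
  haveI := kernels H hA
  suffices hnc : ¬ N ≤ Subgroup.center SL[k+2] by
    have hT := eq_top_of_noncentral (Cfsg.Agent.H1.isSimpleGroup_PSL_of_three_le (k+2) (by omega))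
      (Cfsg.Agent.H1.commutator_SL_eq_top (Or.inl (by simp; omega))) N hnc
    exact eq_top_of_proj H (fun a => (hT ▸ Subgroup.mem_top a : a ∈ N)) hB
  intro hle
  -- counting
  have h1 : Nat.card SL[k+2] ≤ Nat.card H :=
    Nat.card_le_card_of_surjective (fun x : H => (x : SL[k+2] × SL[2]).1) fun a => by
      obtain ⟨x, hx, rfl⟩ : a ∈ H.map (MonoidHom.fst _ _) := hA ▸ Subgroup.mem_top a
      exact ⟨⟨x, hx⟩, rfl⟩
  have h2 : Nat.card H ≤ Nat.card N * Nat.card SL[2] := by
    let f : H →* SL[2] := (MonoidHom.snd _ _).comp H.subtype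
    rw [← f.ker.card_mul_index, Subgroup.index_ker]
    refine Nat.mul_le_mul ?_ (Subgroup.card_le_card_group _)
    refine Nat.card_le_card_of_injective (fun x => (⟨(x.1 : SL[k+2] × SL[2]).1, ?_⟩ : N)) ?_
    · show ((x.1 : SL[k+2] × SL[2]).1, (1 : SL[2])) ∈ H
      have e : (x.1 : SL[k+2] × SL[2]).2 = 1 := MonoidHom.mem_ker.mp x.2
      have := x.1.2
      rwa [← Prod.mk.eta (p := (x.1 : SL[k+2] × SL[2])), e] at this
    · intro x y h
      refine Subtype.ext (Subtype.ext (Prod.ext (congrArg Subtype.val h) ?_))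
      exact (MonoidHom.mem_ker.mp x.2).trans (MonoidHom.mem_ker.mp y.2).symm
  have h3 : Nat.card N ≤ Fintype.card F - 1 := by
    refine (Subgroup.card_le_of_le hle).trans ?_
    rw [Nat.card_congr (Matrix.SpecialLinearGroup.center_equiv_rootsOfUnity).toEquiv]
    refine (Subgroup.card_le_card_group _).trans (le_of_eq ?_)
    rw [Nat.card_units, Nat.card_eq_fintype_card (α := F)]
  have h4 : Nat.card SL[k+2] * (Fintype.card F - 1) ≤ (Fintype.card F - 1) * (Nat.card SL[2] * (Fintype.card F - 1)) := by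
    rw [← mul_assoc]
    exact Nat.mul_le_mul_right _ (h1.trans (h2.trans (Nat.mul_le_mul_right _ h3)))
  rw [CTD.card_SL_mul, CTD.card_SL_mul, CTD.card_GL_split, CTD.card_GL_split] at h4
  obtain ⟨j, rfl⟩ : ∃ j, k = j + 1 := ⟨k - 1, by omega⟩
  have hq : 2 ≤ Fintype.card F := Fintype.one_lt_card
  set q := Fintype.card F
  have e1 : q ^ 3 ≤ q ^ (∑ i : Fin (j + 1 + 2), (i : ℕ)) := by
    refine Nat.pow_le_pow_right (by omega) ?_
    rw [Fin.sum_univ_eq_sum_range (fun i => i) (j + 1 + 2), Finset.sum_range_succ, Finset.sum_range_succ]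
    omega
  have hone : ∀ i, 1 ≤ q ^ (i + 1) - 1 := fun i => by
    have : q ≤ q ^ (i + 1) := Nat.le_self_pow (by omega) q
    omega
  have e2 : (q - 1) * (q ^ 2 - 1) * (q ^ 3 - 1) ≤ ∏ i ∈ Finset.range (j + 1 + 2), (q ^ (i + 1) - 1) := by
    rw [show j + 1 + 2 = 3 + j by omega, Finset.prod_range_add]
    refine le_trans (le_of_eq ?_) (Nat.le_mul_of_pos_right _ (Finset.prod_pos fun i _ => hone _))
    simp [Finset.prod_range_succ]
  have e3 : q ^ (∑ i : Fin 2, (i : ℕ)) * ∏ i ∈ Finset.range 2, (q ^ (i + 1) - 1) = q * ((q - 1) * (q ^ 2 - 1)) := by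
    simp [Finset.prod_range_succ]
  rw [e3] at h4
  have h5 := le_trans (Nat.mul_le_mul e1 e2) h4
  have hpos : 0 < (q - 1) * (q ^ 2 - 1) := Nat.mul_pos (by omega) (hone 1)
  have h6 : q ^ 3 * (q ^ 3 - 1) * ((q - 1) * (q ^ 2 - 1)) ≤ (q - 1) * q * ((q - 1) * (q ^ 2 - 1)) := by
    refine le_trans (le_of_eq ?_) (h5.trans (le_of_eq ?_)) <;> ring
  have h7 : q ^ 3 * (q ^ 3 - 1) ≤ (q - 1) * q := Nat.le_of_mul_le_mul_right h6 hpos
  have h8 : q * q < q ^ 3 * (q ^ 3 - 1) := by
    have a : q * q < q ^ 3 := by nlinarith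
    exact lt_of_lt_of_le a (Nat.le_mul_of_pos_right _ (hone 2))
  have h9 : (q - 1) * q ≤ q * q := Nat.mul_le_mul_right _ (Nat.sub_le _ _)
  omega

theorem exists_pair_small : ∃ g₁ g₂ : SL[2] × SL[2], Subgroup.closure {g₁, g₂} = ⊤ := by
  classical
  let x : SL[2] := SpecialLinearGroup.transvection (show (0 : Fin 2) ≠ 1 by decide) 1
  let w : SL[2] := ⟨!![0, 1; -1, 0], by simp [Matrix.det_fin_two]⟩
  have hw : (w : Matrix (Fin 2) (Fin 2) F) =
      Matrix.of (fun i j : Fin 2 => if j.val = i.val + 1 then 1 else if i.val = 1 ∧ j.val = 0 then (-1) ^ 1 else 0) := by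
    ext i j; fin_cases i <;> fin_cases j <;> simp [w]
  have hx : (x : Matrix (Fin 2) (Fin 2) F) = Matrix.transvection (0 : Fin 2) (1 : Fin 2) 1 := rfl
  have hxw : ((x * w : SL[2]) : Matrix (Fin 2) (Fin 2) F) = !![-1, 1; -1, 0] := by
    rw [Matrix.SpecialLinearGroup.coe_mul, hx]
    ext i j; fin_cases i <;> fin_cases j <;> simp [w, Matrix.mul_apply, Fin.sum_univ_two, Matrix.transvection]
  have hb3 : (x * w) ^ 3 = 1 := by
    refine Subtype.ext ?_
    rw [pow_succ, pow_two, Matrix.SpecialLinearGroup.coe_mul, Matrix.SpecialLinearGroup.coe_mul, hxw]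
    ext i j; fin_cases i <;> fin_cases j <;> simp [Matrix.mul_apply, Fin.sum_univ_two]
  by_cases hq : Fintype.card F ≤ 3
  · -- coprime orders
    have hgen := Cfsg.Agent.H70.closure_x_w_eq_top (K := F) hq 1 le_rfl x w hx hw
    obtain ⟨p, hp⟩ := CharP.exists F
    haveI : Fact p.Prime := ⟨CharP.char_is_prime F p⟩
    have hpdvd : p = 2 ∨ p = 3 := by
      obtain ⟨n, -, hn⟩ := FiniteField.card F p
      have h1 := Fintype.one_lt_card (α := F)
      have : p ≤ Fintype.card F := by rw [hn]; exact Nat.le_self_pow n.ne_zero p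
      have := (Fact.out : p.Prime).two_le
      omega
    have hxp : x ^ p = 1 := by
      have : ∀ j : ℕ, x ^ j = SpecialLinearGroup.transvection (show (0 : Fin 2) ≠ 1 by decide) (j : F) := by
        intro j
        induction j with
        | zero => simp
        | succ j ih => rw [pow_succ, ih, ← SpecialLinearGroup.transvection_add, Nat.cast_succ]
      rw [this, CharP.cast_eq_zero]; simp
    obtain ⟨y, e, hy, hyg, hco⟩ : ∃ (y : SL[2]) (e : ℕ), y ^ e = 1 ∧ Subgroup.closure {x, y} = ⊤ ∧ Nat.Coprime p e := by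
      rcases hpdvd with rfl | rfl
      · refine ⟨x * w, 3, hb3, ?_, by decide⟩
        rw [eq_top_iff, ← hgen, Subgroup.closure_le]
        refine Set.insert_subset_iff.mpr ⟨Subgroup.subset_closure (Or.inl rfl), Set.singleton_subset_iff.mpr ?_⟩
        have := mul_mem (inv_mem (Subgroup.subset_closure (Or.inl rfl) : x ∈ Subgroup.closure {x, x * w}))
          (Subgroup.subset_closure (Or.inr rfl) : x * w ∈ Subgroup.closure {x, x * w})
        simpa using this
      · refine ⟨w, 4, ?_, hgen, by decide⟩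
        refine Subtype.ext ?_
        rw [pow_succ, pow_succ, pow_two, Matrix.SpecialLinearGroup.coe_mul, Matrix.SpecialLinearGroup.coe_mul,
          Matrix.SpecialLinearGroup.coe_mul]
        ext i j; fin_cases i <;> fin_cases j <;> simp [w, Matrix.mul_apply, Fin.sum_univ_two]
    refine ⟨(x, y), (y, x), ?_⟩
    set H := Subgroup.closure ({(x, y), (y, x)} : Set (SL[2] × SL[2]))
    obtain ⟨j, hj1, hj2⟩ := (⟨(Nat.chineseRemainder hco 1 0).1, (Nat.chineseRemainder hco 1 0).2⟩ :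
      ∃ j, j ≡ 1 [MOD p] ∧ j ≡ 0 [MOD e])
    have hxj : x ^ j = x := (pow_eq_pow_of_modEq hj1 hxp).trans (pow_one x)
    have hyj : y ^ j = 1 := (pow_eq_pow_of_modEq hj2 hy).trans (pow_zero y)
    have m1 : (x, (1 : SL[2])) ∈ H := by
      have := H.pow_mem (Subgroup.subset_closure (Or.inl rfl) : (x, y) ∈ H) j
      rwa [Prod.pow_mk, hxj, hyj] at this
    have m2 : ((1 : SL[2]), x) ∈ H := by
      have := H.pow_mem (Subgroup.subset_closure (Or.inr rfl) : (y, x) ∈ H) j
      rwa [Prod.pow_mk, hxj, hyj] at this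
    have m3 : (y, (1 : SL[2])) ∈ H := by
      have := H.mul_mem (Subgroup.subset_closure (Or.inr rfl) : (y, x) ∈ H) (H.inv_mem m2)
      simpa using this
    refine eq_top_of_proj H (fun a => ?_) ?_
    · have : (Subgroup.closure {x, y}) ≤ H.comap (MonoidHom.inl SL[2] SL[2]) := by
        rw [Subgroup.closure_le]; rintro z (rfl | rfl)
        · exact m1
        · exact m3
      exact this (hyg ▸ Subgroup.mem_top a)
    · refine proj_top _ ?_
      rw [Set.image_pair, Set.pair_comm]; exact hyg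
  -- the main case
  obtain ⟨a, ha⟩ := IsCyclic.exists_generator (α := Fˣ)
  have ha1 : (a : F) ^ 2 ≠ 1 := by
    intro h
    have h2 : a ^ 2 = 1 := Units.ext (by simpa using h)
    have hle : orderOf a ≤ 2 := Nat.le_of_dvd (by norm_num) (orderOf_dvd_of_pow_eq_one h2)
    rw [orderOf_eq_card_of_forall_mem_zpowers ha, Nat.card_units, Nat.card_eq_fintype_card (α := F)] at hle
    omega
  let h : SL[2] := ⟨!![(a : F), 0; 0, ((a⁻¹ : Fˣ) : F)], by simp⟩
  have hh : (h : Matrix (Fin 2) (Fin 2) F) =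
      Matrix.diagonal (fun i : Fin 2 => if i.val = 0 then (a : F) else if i.val = 1 then ((a⁻¹ : Fˣ) : F) else 1) := by
    ext i j; fin_cases i <;> fin_cases j <;> simp [h]
  have hgen := Cfsg.Agent.H70.closure_h_xw_eq_top (K := F) (by omega) 1 le_rfl a ha h x w hh hx hw
  have hps : IsSimpleGroup (Matrix.ProjectiveSpecialLinearGroup (Fin 2) F) :=
    Cfsg.Agent.H1.isSimpleGroup_PSL (Or.inr ⟨a, a.ne_zero, ha1⟩)
  have hperf : commutator SL[2] = ⊤ := Cfsg.Agent.H1.commutator_SL_eq_top (Or.inr ⟨a, a.ne_zero, ha1⟩)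
  refine ⟨(h, h), (x * w, h * (x * w)), ?_⟩
  set H := Subgroup.closure ({(h, h), (x * w, h * (x * w))} : Set (SL[2] × SL[2]))
  have hA : H.map (MonoidHom.fst _ _) = ⊤ := by
    rw [MonoidHom.map_closure, Set.image_pair]; exact hgen
  have hB : H.map (MonoidHom.snd _ _) = ⊤ := by
    rw [MonoidHom.map_closure, Set.image_pair, eq_top_iff, ← hgen, Subgroup.closure_le]
    rintro z (rfl | rfl)
    · exact Subgroup.subset_closure (Or.inl rfl)
    · have := mul_mem (inv_mem (Subgroup.subset_closure (Or.inl rfl) : h ∈ Subgroup.closure {h, h * (x * w)}))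
        (Subgroup.subset_closure (Or.inr rfl) : h * (x * w) ∈ Subgroup.closure {h, h * (x * w)})
      simpa using this
  set M := H.comap (MonoidHom.inr SL[2] SL[2]) with hM
  have hMn : M.Normal := ⟨fun z hz g => by
    obtain ⟨⟨g1, g2⟩, hg, rfl⟩ : g ∈ H.map (MonoidHom.snd _ _) := hB ▸ Subgroup.mem_top g
    have := H.mul_mem (H.mul_mem hg hz) (H.inv_mem hg)
    show ((1 : SL[2]), g2 * z * g2⁻¹) ∈ H
    simpa using this⟩
  have hMnc : ¬ M ≤ Subgroup.center SL[2] := by
    intro hle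
    have m : (h * (x * w)) ^ 3 ∈ M := by
      have := H.pow_mem (Subgroup.subset_closure (Or.inr rfl) : (x * w, h * (x * w)) ∈ H) 3
      rw [Prod.pow_mk, hb3] at this
      exact this
    have hc := congrArg (fun z : SL[2] => (z : Matrix (Fin 2) (Fin 2) F))
      (Subgroup.mem_center_iff.mp (hle m) x)
    simp only [pow_succ, pow_zero, one_mul, Matrix.SpecialLinearGroup.coe_mul, hx] at hc
    rw [show Matrix.transvection (0 : Fin 2) (1 : Fin 2) (1 : F) * (w : Matrix (Fin 2) (Fin 2) F) = !![-1, 1; -1, 0] by rw [← hx, ← Matrix.SpecialLinearGroup.coe_mul, hxw]] at hc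
    have h00 := congrFun (congrFun hc 0) 0
    simp [h, Matrix.mul_apply, Fin.sum_univ_two, Matrix.transvection, Matrix.single] at h00
    apply ha1
    field_simp at h00 ⊢
    linear_combination (-1 : F) * h00
  have hT := eq_top_of_noncentral hps hperf M hMnc
  rw [eq_top_iff]
  rintro ⟨u, v⟩ -
  obtain ⟨⟨u', v'⟩, h', rfl⟩ : u ∈ H.map (MonoidHom.fst _ _) := hA ▸ Subgroup.mem_top u
  have := H.mul_mem h' (hT ▸ Subgroup.mem_top (v'⁻¹ * v) : (v'⁻¹ * v) ∈ M)
  simpa using this

theorem exists_pair (k : ℕ) : ∃ g₁ g₂ : SL[k+2] × SL[2], Subgroup.closure {g₁, g₂} = ⊤ := by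
  rcases Nat.eq_zero_or_pos k with rfl | hk
  · exact exists_pair_small
  · exact exists_pair_big k hk

end Cfsg.Agent.H78.CTDPres
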