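import Cfsg.Agent.H78.CTDPres.Pres
import Cfsg.Agent.H78.CTDPres.GenPair
import Cfsg.Agent.H81.SLnPres.Cases

/-!
Presentations of `Ω⁺_{2n}` and `PΩ⁺_{2n}`.
-/

set_option autoImplicit false
set_option linter.unusedSectionVars false

namespace Cfsg.Agent.H78.CTDPres

open Cfsg.Agent.H78.CTD Cfsg.Agent.H5

variable {F : Type*} [Field F] [Fintype F] {k : ℕ}

theorem center_cyclic : ∃ z, Subgroup.center (commutator (OG F k)) = Subgroup.zpowers z := by
  haveI : Finite (Fin (k+4) ⊕ Fin (k+4) → F) := Pi.finite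
  haveI : Finite ((Fin (k+4) ⊕ Fin (k+4) → F) ≃ₗ[F] (Fin (k+4) ⊕ Fin (k+4) → F)) :=
    Finite.of_injective (fun e => (e : (Fin (k+4) ⊕ Fin (k+4) → F) → (Fin (k+4) ⊕ Fin (k+4) → F)))
      DFunLike.coe_injective
  haveI : Finite (OG F k) := Subtype.finite
  have hQ := H5.qPlus_nondegenerate (F := F) (k+4)
  have hn : Module.finrank F (Fin (k+4) ⊕ Fin (k+4) → F) = k + 4 + (k + 4) := by simp
  set v : Fin (k+4) ⊕ Fin (k+4) → F := ev (.inl 0) 1
  have hs : ∀ z : Subgroup.center (commutator (OG F k)), ∀ x,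
      act (((z : commutator (OG F k)) : OG F k)) x = (act ((z : commutator (OG F k)) : OG F k) v (.inl 0)) • x := by
    intro z
    obtain ⟨t, ht⟩ := (H5.mem_center_iff hQ (by omega) (Or.inr (by omega))).1 z.2
    intro x
    simp only [act]
    rw [ht, ht]
    congr 1
    simp [v, ev]
  let θ : Subgroup.center (commutator (OG F k)) →* F :=
    { toFun := fun z => act ((z : commutator (OG F k)) : OG F k) v (.inl 0)
      map_one' := by simp [v, ev, act_one]
      map_mul' := fun a b => by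
        show act (((a : commutator (OG F k)) : OG F k) * ((b : commutator (OG F k)) : OG F k)) v (.inl 0) = _
        rw [act_mul, hs a (act _ v)]
        simp }
  haveI : IsCyclic (Subgroup.center (commutator (OG F k))) := isCyclic_of_subgroup_isDomain θ (fun a b h => by
    refine Subtype.ext (Subtype.ext (H5.orth_ext fun x => ?_))
    show act _ x = act _ x
    rw [hs a x, hs b x]
    exact congrArg (· • x) h)
  obtain ⟨z, hz⟩ := IsCyclic.exists_generator (α := Subgroup.center (commutator (OG F k)))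
  refine ⟨z, le_antisymm (fun x hx => ?_) ((Subgroup.zpowers_le).2 z.2)⟩
  obtain ⟨j, hj⟩ := Subgroup.mem_zpowers_iff.1 (hz ⟨x, hx⟩)
  exact Subgroup.mem_zpowers_iff.2 ⟨j, by rw [← SubgroupClass.coe_zpow, hj]⟩

theorem both {κ : Type} [Fintype κ] (R : Finset (FreeGroup κ))
    (e : PresentedGroup (↑R : Set (FreeGroup κ)) ≃* Matrix.SpecialLinearGroup (Fin (k+4)) F)
    (N : ℕ) (hk : Fintype.card κ + 2 ≤ 8) (hN : R.card + 7 + (8 - (Fintype.card κ + 2)) ≤ N) :
    (∃ rels : Finset (FreeGroup (Fin 8)), rels.card ≤ N ∧ Nonempty (PresentedGroup (↑rels : Set (FreeGroup (Fin 8))) ≃*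
      ↥(Cfsg.Omega F (Cfsg.quadFormPlus (k+4) F)))) ∧
    (∃ rels : Finset (FreeGroup (Fin 8)), rels.card ≤ N + 1 ∧ Nonempty (PresentedGroup (↑rels : Set (FreeGroup (Fin 8))) ≃*
      Cfsg.POmega F (Cfsg.quadFormPlus (k+4) F))) := by
  classical
  obtain ⟨g₁, g₂, hg⟩ := exists_pair (F := F) k
  obtain ⟨u₁, u₂, hu⟩ := Cfsg.Agent.H81.SLnPres.exists_two_gen (F := F) 0
  obtain ⟨R', hR', ⟨e'⟩⟩ := CTD.exists_pres R e g₁ g₂ hg u₁ u₂ hu
  have hc : Fintype.card (κ ⊕ Fin 2) = Fintype.card κ + 2 := by simp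
  refine ⟨?_, ?_⟩
  · obtain ⟨rels, h, ⟨i⟩⟩ := Cfsg.Agent.H81.SLnPres.pres_pad 8 N (by omega) R' (by omega) e'
    exact ⟨rels, h, ⟨i.trans (H5.omegaEquiv (qPlus (k+4) F) (H5.coe_qPlus _)).symm⟩⟩
  · obtain ⟨R'', hR'', ⟨e''⟩⟩ := Cfsg.Agent.H81.SLnPres.pres_quotient R' e'
      (Subgroup.center (commutator (OG F k))) center_cyclic
    obtain ⟨rels, h, ⟨i⟩⟩ := Cfsg.Agent.H81.SLnPres.pres_pad 8 (N + 1) (by omega) R'' (by omega) e''
    exact ⟨rels, h, ⟨i.trans (H5.pomegaEquiv (qPlus (k+4) F) (H5.coe_qPlus _)).symm⟩⟩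

end Cfsg.Agent.H78.CTDPres
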