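import Cfsg.Agent.H78.CTD.Main

/-!
Elements of the orthogonal group of plus type by their action on the two totally singular halves.
-/

set_option autoImplicit false
set_option linter.unusedSectionVars false

namespace Cfsg.Agent.H78.CTD

open Matrix Cfsg.Agent.H78.CTA Cfsg.Agent.H64.SLIndex Cfsg.Agent.H70.AutPSL
open Cfsg.Agent.H5 (qPlus orth eich)
open QuadraticMap (polar)

variable {F : Type*} [Field F] [Fintype F] {k : ℕ}

local notation "SL[" m "]" => Matrix.SpecialLinearGroup (Fin m) F

/-- The vectors of the second half are kept. -/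
def KeepR (g : OG F k) : Prop :=
  ∀ x, (∀ a, x (.inl a) = 0) → ∀ a, act g x (.inl a) = 0

/-- The first half is fixed pointwise and the second coordinates are kept. -/
def UpU (g : OG F k) : Prop :=
  (∀ x, (∀ a, x (.inr a) = 0) → act g x = x) ∧ ∀ x a, act g x (.inr a) = x (.inr a)

theorem act_mul (g h : OG F k) (x : Fin (k+4) ⊕ Fin (k+4) → F) : act (g * h) x = act g (act h x) := rfl

theorem act_one (x : Fin (k+4) ⊕ Fin (k+4) → F) : act (1 : OG F k) x = x := rfl

theorem KeepR.one : KeepR (1 : OG F k) := fun _ hx a => hx a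

theorem KeepR.mul {g h : OG F k} (hg : KeepR g) (hh : KeepR h) : KeepR (g * h) := fun x hx a => by
  rw [act_mul]; exact hg _ (hh x hx) a

theorem UpU.one : UpU (1 : OG F k) := ⟨fun _ _ => rfl, fun _ _ => rfl⟩

theorem UpU.mul {g h : OG F k} (hg : UpU g) (hh : UpU h) : UpU (g * h) :=
  ⟨fun x hx => by rw [act_mul, hh.1 x hx, hg.1 x hx], fun x a => by rw [act_mul, hg.2, hh.2]⟩

theorem UpU.add {g h : OG F k} (hg : UpU g) (hh : UpU h) (a b : Fin (k+4)) :
    act (g * h) (ev (.inr b) 1) (.inl a) =
      act g (ev (.inr b) 1) (.inl a) + act h (ev (.inr b) 1) (.inl a) := by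
  set d := act h (ev (.inr b) 1) - ev (.inr b) 1 with hd
  have hd0 : ∀ a, d (.inr a) = 0 := fun a => by
    rw [hd, Pi.sub_apply, hh.2, sub_self]
  rw [act_mul, show act h (ev (.inr b) 1) = ev (.inr b) 1 + d by rw [hd, add_sub_cancel]]
  show ((g : (Fin (k+4) ⊕ Fin (k+4) → F) ≃ₗ[F] (Fin (k+4) ⊕ Fin (k+4) → F)) (ev (.inr b) 1 + d)) (.inl a) = _
  rw [map_add, Pi.add_apply, Pi.add_apply]
  show _ + act g d (.inl a) = _
  rw [hg.1 d hd0]
  simp [ev]

/-- The exchange of the two halves. -/
noncomputable def mirror : OG F k :=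
  ⟨LinearEquiv.funCongrLeft F F (Equiv.sumComm (Fin (k+4)) (Fin (k+4))), fun v => by
    rw [H5.coe_qPlus, Cfsg.quadFormPlus, Cfsg.quadFormPlus]
    refine Finset.sum_congr rfl fun i _ => ?_
    show v (.inr i) * v (.inl i) = _
    exact mul_comm _ _⟩

theorem mirror_l (x : Fin (k+4) ⊕ Fin (k+4) → F) (a : Fin (k+4)) :
    act (mirror : OG F k) x (.inl a) = x (.inr a) := rfl

theorem mirror_r (x : Fin (k+4) ⊕ Fin (k+4) → F) (a : Fin (k+4)) :
    act (mirror : OG F k) x (.inr a) = x (.inl a) := rfl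

theorem mirror_inv : (mirror : OG F k)⁻¹ = mirror :=
  inv_eq_of_mul_eq_one_right (H5.orth_ext fun x => funext fun a => by
    show act mirror (act mirror x) a = x a
    rcases a with a | a <;> rfl)

theorem mirror_ev (a : Fin (k+4)) (t : F) :
    act (mirror : OG F k) (ev (.inl a) t) = ev (.inr a) t ∧
      act (mirror : OG F k) (ev (.inr a) t) = ev (.inl a) t := by
  constructor <;> (funext b; rcases b with b | b <;> simp [mirror_l, mirror_r, ev, Pi.single_apply])

theorem mirror_conj_f (g : SL[k+4]) :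
    mirror * fO g * (mirror : OG F k)⁻¹ = fO (it (k+4) g) := by
  rw [mirror_inv]
  refine H5.orth_ext fun x => funext fun a => ?_
  show act mirror (act (fO g) (act mirror x)) a = act (fO (it (k+4) g)) x a
  rcases a with a | a
  · rw [mirror_l, fO_inr, fO_inl]; rfl
  · rw [mirror_r, fO_inl, fO_inr, it_it]; rfl

theorem mirror_conj_phi (t : F) :
    mirror * phiO (t12 t) * (mirror : OG F k)⁻¹ = phiO (t21 (-t)) ∧
      mirror * phiO (t21 t) * (mirror : OG F k)⁻¹ = phiO (t12 (-t)) := by
  constructor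
  · rw [(phiO_t12 t).1, H5.eich_conj, (phiO_t12 (-t)).2, neg_neg]
    show eich _ (act mirror _) (act mirror _) = _
    rw [(mirror_ev _ _).1, (mirror_ev _ _).1]
  · rw [(phiO_t12 t).2, H5.eich_conj, (phiO_t12 (-t)).1]
    show eich _ (act mirror _) (act mirror _) = _
    rw [(mirror_ev _ _).2, (mirror_ev _ _).2]

theorem emb3_low (s : SL[2]) : emb3 (k := k) (low 1 s) = low (k+2) s := by
  refine DFunLike.congr_fun (hom_ext2 (f := (emb3 (k := k)).comp (low 1)) (g := low (k+2))
    (fun t => ?_) (fun t => ?_)) s <;>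
    simp only [MonoidHom.comp_apply]
  · rw [low_u01, t12, emb3_transvection, xt_eq (by simp [Fin.ext_iff]), u01, low_transvection]
  · rw [low_u10, t21, emb3_transvection, xt_eq (by simp [Fin.ext_iff]), u10, low_transvection]

theorem low_D2_mono (u : Fˣ) :
    IsMono (low (k+2) (D2 u)) (Equiv.refl _)
      (fun j => if j = iP k then (u : F) else if j = iQ k then ((u⁻¹ : Fˣ) : F) else 1) := by
  intro i j
  show lowM (k+2) (D2 u : Matrix (Fin 2) (Fin 2) F) i j = _
  obtain ⟨i, rfl⟩ := (finSumFinEquiv (m := k+2) (n := 2)).surjective i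
  obtain ⟨j, rfl⟩ := (finSumFinEquiv (m := k+2) (n := 2)).surjective j
  rw [lowM, Matrix.reindex_apply, Matrix.submatrix_apply, Equiv.symm_apply_apply, Equiv.symm_apply_apply]
  rcases i with i | i <;> rcases j with j | j
  · simp only [Matrix.fromBlocks_apply₁₁, Matrix.one_apply, Equiv.refl_apply]
    by_cases h : i = j
    · subst h
      have hi := i.isLt
      simp [iP, iQ, Fin.ext_iff, show i.val ≠ k + 2 by omega, show i.val ≠ k + 3 by omega]
    · simp [h]
  · simp [Fin.ext_iff]
    omega
  · simp [Fin.ext_iff]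
    omega
  · rw [Matrix.fromBlocks_apply₂₂, D2_coe]
    fin_cases i <;> fin_cases j <;> simp [iP, iQ, Fin.ext_iff]

theorem phiO_D2 (u : Fˣ) (x : Fin (k+4) ⊕ Fin (k+4) → F) (a : Fin (k+4)) :
    act (phiO (low 1 (D2 u)) : OG F k) x (.inl a) = (Core.dd u a : F) * x (.inl a) ∧
    act (phiO (low 1 (D2 u)) : OG F k) x (.inr a) = ((Core.dd u a)⁻¹ : Fˣ) * x (.inr a) := by
  have hc : ∀ j, (if j = iP k then (u : F) else if j = iQ k then ((u⁻¹ : Fˣ) : F) else 1) ≠ 0 := fun j => by
    split_ifs <;> first | exact Units.ne_zero _ | exact one_ne_zero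
  have hm := low_D2_mono (k := k) u
  have e : ∀ x a, act (fO (low (k+2) (D2 u)) : OG F k) x (.inl a) =
      (if a = iP k then (u : F) else if a = iQ k then ((u⁻¹ : Fˣ) : F) else 1) * x (.inl a) ∧
      act (fO (low (k+2) (D2 u)) : OG F k) x (.inr a) =
      (if a = iP k then (u : F) else if a = iQ k then ((u⁻¹ : Fˣ) : F) else 1)⁻¹ * x (.inr a) := by
    intro x a
    constructor
    · rw [fO_inl]
      simp [Matrix.mulVec, dotProduct, hm a _]
    · rw [fO_inr]
      simp [Matrix.mulVec, dotProduct, hm.it hc a _]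
  rw [phiO_apply, emb3_low]
  constructor
  · show act tau (act (fO _) (act tau x)) (.inl a) = _
    rw [tau_apply]
    by_cases ha : a = iQ k
    · subst ha
      rw [Equiv.swap_apply_left, (e _ _).2, tau_apply, Equiv.swap_apply_right]
      simp [Core.dd, iP, iQ, Fin.ext_iff]
    · rw [Equiv.swap_apply_of_ne_of_ne (by simpa using ha) (by simp), (e _ _).1, tau_apply,
        Equiv.swap_apply_of_ne_of_ne (by simpa using ha) (by simp)]
      congr 1
      by_cases hP : a = iP k
      · subst hP; simp [Core.dd, iP]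
      · rw [if_neg hP, if_neg ha]
        have : ¬ k + 2 ≤ a.val := by simp [iP, iQ, Fin.ext_iff] at ha hP; omega
        simp [Core.dd, this]
  · show act tau (act (fO _) (act tau x)) (.inr a) = _
    rw [tau_apply]
    by_cases ha : a = iQ k
    · subst ha
      rw [Equiv.swap_apply_right, (e _ _).1, tau_apply, Equiv.swap_apply_left]
      simp [Core.dd, iP, iQ, Fin.ext_iff]
    · rw [Equiv.swap_apply_of_ne_of_ne (by simp) (by simpa using ha), (e _ _).2, tau_apply,
        Equiv.swap_apply_of_ne_of_ne (by simp) (by simpa using ha)]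
      congr 1
      by_cases hP : a = iP k
      · subst hP; simp [Core.dd, iP]
      · rw [if_neg hP, if_neg ha]
        have : ¬ k + 2 ≤ a.val := by simp [iP, iQ, Fin.ext_iff] at ha hP; omega
        simp [Core.dd, this]

end Cfsg.Agent.H78.CTD
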