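import Cfsg.Agent.H78.CTDPres.Elem

/-!
Seven relations and two generators on top of a presentation of `SL_n` present `Ω⁺_{2n}`.
-/

set_option autoImplicit false
set_option linter.unusedSectionVars false

namespace Cfsg.Agent.H78.CTD

open Matrix Cfsg.Agent.H78.CTA Cfsg.Agent.H64.SLIndex Cfsg.Agent.H70.AutPSL
open Cfsg.Agent.H5 (qPlus orth eich)
open scoped commutatorElement

variable {F : Type*} [Field F] [Fintype F] {k : ℕ}

local notation "SL[" m "]" => Matrix.SpecialLinearGroup (Fin m) F

theorem exists_lift_word {α G : Type*} [Group G] (v : α → G) (h : Subgroup.closure (Set.range v) = ⊤) :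
    ∃ w : G → FreeGroup α, ∀ g, FreeGroup.lift v (w g) = g := by
  have : ∀ g, ∃ w, FreeGroup.lift v w = g := fun g =>
    MonoidHom.mem_range.mp (by rw [FreeGroup.range_lift_eq_closure, h]; trivial)
  exact ⟨fun g => (this g).choose, fun g => (this g).choose_spec⟩

theorem exists_pres {κ : Type*} [DecidableEq κ] (R : Finset (FreeGroup κ))
    (e : PresentedGroup (↑R : Set (FreeGroup κ)) ≃* Matrix.SpecialLinearGroup (Fin (k+4)) F)
    (g₁ g₂ : Matrix.SpecialLinearGroup (Fin (k+2)) F × Matrix.SpecialLinearGroup (Fin 2) F)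
    (hg : Subgroup.closure {g₁, g₂} = ⊤) (u₁ u₂ : Matrix.SpecialLinearGroup (Fin 2) F)
    (hu : Subgroup.closure {u₁, u₂} = ⊤) :
    ∃ R' : Finset (FreeGroup (κ ⊕ Fin 2)), R'.card ≤ R.card + 7 ∧
      Nonempty (PresentedGroup (↑R' : Set (FreeGroup (κ ⊕ Fin 2))) ≃* commutator (OG F k)) := by
  classical
  obtain ⟨lw, hlw⟩ := (PresentedGroup.mk_surjective (↑R : Set (FreeGroup κ))).hasRightInverse
  let u : Fin 2 → SL[2] := ![u₁, u₂]
  let gb : Fin 2 → SL[k+2] × SL[2] := ![g₁, g₂]
  have hu' : Subgroup.closure (Set.range u) = ⊤ := by rw [Matrix.range_cons_cons_empty]; exact hu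
  have hg' : Subgroup.closure (Set.range gb) = ⊤ := by rw [Matrix.range_cons_cons_empty]; exact hg
  obtain ⟨word, hword⟩ := exists_lift_word u hu'
  obtain ⟨π, c, hπ, hc, hc1⟩ := exists_mono (F := F) (Equiv.swap (0 : Fin (k+4)) (iP k)) ⟨1, by omega⟩
  have c0 : c 0 = 1 := hc1 _ (by simp [Fin.ext_iff])
  have cQ : c (iQ k) = 1 := hc1 _ (by simp [iQ, Fin.ext_iff])
  let C : Fin 2 → FreeGroup (κ ⊕ Fin 2) := fun j => FreeGroup.of (Sum.inr j)
  let Fg : SL[k+4] → FreeGroup (κ ⊕ Fin 2) := fun g => FreeGroup.map Sum.inl (lw (e.symm g))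
  let cw : SL[2] → FreeGroup (κ ⊕ Fin 2) := fun s => FreeGroup.lift C (word s)
  let Ww : FreeGroup (κ ⊕ Fin 2) := Fg π * (cw wS * Fg (rot (iQ k) (iP k))) * (Fg π)⁻¹
  let dS : SL[k+4] := low (k+2) (D2 (-1))
  let R' : Finset (FreeGroup (κ ⊕ Fin 2)) :=
    ((R.image (FreeGroup.map Sum.inl) ∪ (Finset.univ : Finset (Fin 2 × Fin 2)).image
      (fun p => ⁅Fg (blk (gb p.1)), C p.2⁆)) ∪
      (Finset.univ : Finset (Fin 2)).image (fun j => (C j)⁻¹ * (Ww * Fg (low (k+2) (u j)) * Ww⁻¹))) ∪
      {Fg dS * cw (D2 (-1))}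
  refine ⟨R', ?_, ?_⟩
  · refine (Finset.card_union_le _ _).trans ?_
    refine (Nat.add_le_add ((Finset.card_union_le _ _).trans (Nat.add_le_add
      ((Finset.card_union_le _ _).trans (Nat.add_le_add Finset.card_image_le Finset.card_image_le))
      Finset.card_image_le)) le_rfl).trans ?_
    simp
  let π' := PresentedGroup.mk (↑R' : Set (FreeGroup (κ ⊕ Fin 2)))
  have rel : ∀ r ∈ R', π' r = 1 := fun r hr => PresentedGroup.one_of_mem (Finset.mem_coe.2 hr)
  have relC : ∀ i j : Fin 2, π' (Fg (blk (gb i))) * π' (C j) = π' (C j) * π' (Fg (blk (gb i))) := fun i j => by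
    have := rel ⁅Fg (blk (gb i)), C j⁆ (Finset.mem_union_left _ (Finset.mem_union_left _
      (Finset.mem_union_right _ (Finset.mem_image.2 ⟨(i, j), Finset.mem_univ _, rfl⟩))))
    rwa [map_commutatorElement, commutatorElement_eq_one_iff_mul_comm] at this
  have relW : ∀ j, π' (C j) = π' Ww * π' (Fg (low (k+2) (u j))) * (π' Ww)⁻¹ := fun j => by
    have := rel ((C j)⁻¹ * (Ww * Fg (low (k+2) (u j)) * Ww⁻¹)) (Finset.mem_union_left _
      (Finset.mem_union_right _ (Finset.mem_image.2 ⟨j, Finset.mem_univ _, rfl⟩)))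
    rwa [map_mul, map_inv, inv_mul_eq_one, map_mul, map_mul, map_inv] at this
  have relE : π' (Fg dS) * π' (cw (D2 (-1))) = 1 := by
    rw [← map_mul]; exact rel _ (Finset.mem_union_right _ (Finset.mem_singleton_self _))
  -- the map from `SL`
  let gen : κ → PresentedGroup (↑R' : Set (FreeGroup (κ ⊕ Fin 2))) := fun x => π' (FreeGroup.of (Sum.inl x))
  have hgen : ∀ r, FreeGroup.lift gen r = π' (FreeGroup.map Sum.inl r) := fun r =>
    DFunLike.congr_fun (FreeGroup.ext_hom (FreeGroup.lift gen) (π'.comp (FreeGroup.map Sum.inl))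
      fun x => by simp [gen]) r
  have hR : ∀ r ∈ (↑R : Set (FreeGroup κ)), FreeGroup.lift gen r = 1 := fun r hr => by
    rw [hgen]
    exact rel _ (Finset.mem_union_left _ (Finset.mem_union_left _ (Finset.mem_union_left _
      (Finset.mem_image_of_mem _ (Finset.mem_coe.1 hr)))))
  let f : SL[k+4] →* PresentedGroup (↑R' : Set (FreeGroup (κ ⊕ Fin 2))) :=
    (PresentedGroup.toGroup hR).comp e.symm.toMonoidHom
  have hf : ∀ g, π' (Fg g) = f g := fun g => by
    show _ = PresentedGroup.toGroup hR (e.symm g)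
    rw [← hgen]
    nth_rw 2 [← hlw (e.symm g)]
    rfl
  let W := π' Ww
  let η : SL[2] →* PresentedGroup (↑R' : Set (FreeGroup (κ ⊕ Fin 2))) :=
    (MulAut.conj W).toMonoidHom.comp (f.comp (low (k+2)))
  have hη : ∀ j, η (u j) = π' (C j) := fun j => by rw [relW, hf]; rfl
  have hcw : ∀ s, π' (cw s) = η s := fun s => by
    conv_rhs => rw [← hword s]
    exact DFunLike.congr_fun (FreeGroup.ext_hom (π'.comp (FreeGroup.lift C)) (η.comp (FreeGroup.lift u))
      fun x => by simp only [MonoidHom.comp_apply, FreeGroup.lift_apply_of]; exact (hη x).symm) (word s)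
  have hW : W = f π * (η wS * f (rot (iQ k) (iP k))) * (f π)⁻¹ := by
    show π' (Fg π * (cw wS * Fg (rot (iQ k) (iP k))) * (Fg π)⁻¹) = _
    rw [map_mul, map_mul, map_mul, map_inv, hf, hf, hcw]
  have hbc : ∀ g s, f (blk g) * η s = η s * f (blk g) := by
    intro g
    have e1 : ∀ j, f (blk g) * π' (C j) = π' (C j) * f (blk g) := by
      intro j
      have : (⊤ : Subgroup (SL[k+2] × SL[2])) ≤
          (Subgroup.centralizer ({π' (C j)} : Set _)).comap (f.comp blk) := by
        rw [← hg', Subgroup.closure_le]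
        rintro _ ⟨i, rfl⟩
        refine Subgroup.mem_centralizer_singleton_iff.mpr ?_
        show f (blk (gb i)) * _ = _ * f (blk (gb i))
        rw [← hf]; exact relC i j
      exact Subgroup.mem_centralizer_singleton_iff.mp (this (Subgroup.mem_top g))
    intro s
    have : (⊤ : Subgroup SL[2]) ≤ (Subgroup.centralizer ({f (blk g)} : Set _)).comap η := by
      rw [← hu', Subgroup.closure_le]
      rintro _ ⟨j, rfl⟩
      refine Subgroup.mem_centralizer_singleton_iff.mpr ?_
      rw [hη]; exact (e1 j).symm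
    exact (Subgroup.mem_centralizer_singleton_iff.mp (this (Subgroup.mem_top s))).symm
  have hsame : ∀ i j t s, Same i j → f (xt i j t) * η s = η s * f (xt i j t) := fun i j t s h => by
    obtain ⟨g, hg⟩ := xt_mem_blk (F := F) h t
    rw [← hg]; exact hbc g s
  -- the conjugating element fixes the link
  have sA : Equiv.swap (0 : Fin (k+4)) (iP k) (iA k) = iA k := Equiv.swap_apply_of_ne_of_ne hA0 hAP
  have hlink : ∀ t, W * f (xt (iA k) (iP k) t) * W⁻¹ = f (xt (iA k) (iP k) t) ∧
      W * f (xt (iP k) (iA k) t) * W⁻¹ = f (xt (iP k) (iA k) t) := by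
    intro t
    have hV : ∀ i j : Fin (k+4), i.val ≤ k+1 → j.val ≤ k+1 → i ≠ j → ∀ v,
        Commute (η wS * f (rot (iQ k) (iP k))) (f (xt i j v)) := by
      intro i j hi hj hij v
      refine Commute.mul_left (hsame i j v wS (Or.inl ⟨hi, hj⟩)).symm ?_
      refine Commute.map ?_ f
      simp only [rot]
      have h1 : ∀ a b : Fin (k+4), k+2 ≤ a.val → k+2 ≤ b.val → a ≠ b → ∀ w, Commute (xt a b w) (xt i j v) :=
        fun a b ha hb hab w => xt_commute hab hij (by simp [Fin.ext_iff]; omega) (by simp [Fin.ext_iff]; omega) w v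
      exact Commute.mul_left (Commute.mul_left (h1 _ _ (by simp [iQ]) (by simp [iP]) hPQ.symm _)
        (h1 _ _ (by simp [iP]) (by simp [iQ]) hPQ _)) (h1 _ _ (by simp [iQ]) (by simp [iP]) hPQ.symm _)
    constructor
    · have e1 := hπ.conj_xt hc (hA0 (k := k)) (c 0 * t / c (iA k))
      rw [sA, Equiv.swap_apply_left, show c (iA k) * (c 0 * t / c (iA k)) / c 0 = t by
        field_simp [hc (iA k), hc 0]] at e1
      have e2 : f π * f (xt (iA k) 0 (c 0 * t / c (iA k))) * (f π)⁻¹ = f (xt (iA k) (iP k) t) := by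
        rw [← map_mul, e1, map_mul, mul_inv_cancel_right]
      rw [← e2, hW, conj_mul, mul_inv_eq_iff_eq_mul, conj_mul,
        (hV _ _ (by simp [iA]) (by simp) hA0 _).eq]
    · have e1 := hπ.conj_xt hc (hA0 (k := k)).symm (c (iA k) * t / c 0)
      rw [sA, Equiv.swap_apply_left, show c 0 * (c (iA k) * t / c 0) / c (iA k) = t by
        field_simp [hc (iA k), hc 0]] at e1
      have e2 : f π * f (xt 0 (iA k) (c (iA k) * t / c 0)) * (f π)⁻¹ = f (xt (iP k) (iA k) t) := by
        rw [← map_mul, e1, map_mul, mul_inv_cancel_right]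
      rw [← e2, hW, conj_mul, mul_inv_eq_iff_eq_mul, conj_mul,
        (hV _ _ (by simp) (by simp [iA]) hA0.symm _).eq]
  let φ : SL[3] →* PresentedGroup (↑R' : Set (FreeGroup (κ ⊕ Fin 2))) :=
    (MulAut.conj W).toMonoidHom.comp (f.comp emb3)
  have hφ : ∀ s, φ (low 1 s) = η s := fun s => by
    show W * f (emb3 (low 1 s)) * W⁻¹ = W * f (low (k+2) s) * W⁻¹
    rw [emb3_low]
  let D : Core F (PresentedGroup (↑R' : Set (FreeGroup (κ ⊕ Fin 2)))) k :=
    { f := f
      φ := φ
      ap := fun t => by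
        show W * f (emb3 (t01 t)) * W⁻¹ = _
        rw [t01, emb3_transvection]
        rw [show (Fin.natAdd (k+1) (0 : Fin 3) : Fin (k+4)) = iA k from Fin.ext (by simp [iA]),
          show (Fin.natAdd (k+1) (1 : Fin 3) : Fin (k+4)) = iP k from Fin.ext (by simp [iP])]
        exact (hlink t).1
      pa := fun t => by
        show W * f (emb3 (t10 t)) * W⁻¹ = _
        rw [t10, emb3_transvection]
        rw [show (Fin.natAdd (k+1) (0 : Fin 3) : Fin (k+4)) = iA k from Fin.ext (by simp [iA]),
          show (Fin.natAdd (k+1) (1 : Fin 3) : Fin (k+4)) = iP k from Fin.ext (by simp [iP])]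
        exact (hlink t).2
      comm := fun i j t v h => by
        rw [← low_u01, ← low_u10, hφ, hφ]
        exact ⟨hsame i j t _ h, hsame i j t _ h⟩ }
  have hDgen : Subgroup.closure D.gens = ⊤ := by
    have hη' : ∀ s, η s ∈ Subgroup.closure D.gens := fun s => by
      refine mem_of_sl2 η _ (fun t => ?_) (fun t => ?_) s
      · exact Subgroup.subset_closure (Or.inl (Or.inr ⟨t, by rw [← hφ, low_u01]; rfl⟩))
      · exact Subgroup.subset_closure (Or.inr ⟨t, by rw [← hφ, low_u10]⟩)
    rw [eq_top_iff, ← PresentedGroup.closure_range_of, Subgroup.closure_le]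
    rintro _ ⟨x, rfl⟩
    rcases x with x | j
    · refine Subgroup.subset_closure (Or.inl (Or.inl ⟨e (PresentedGroup.of x), ?_⟩))
      show PresentedGroup.toGroup hR (e.symm (e (PresentedGroup.of x))) = _
      rw [e.symm_apply_apply, PresentedGroup.toGroup.of]
      rfl
    · show π' (C j) ∈ _
      rw [← hη]; exact hη' _
  -- the map to the orthogonal group
  let im : κ ⊕ Fin 2 → OG F k := Sum.elim (fun x => fO (e (PresentedGroup.of x))) (fun j => phiO (low 1 (u j)))
  have hiF : ∀ g, FreeGroup.lift im (Fg g) = fO g := fun g => by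
    have : ∀ r, FreeGroup.lift im (FreeGroup.map Sum.inl r) = fO (e (PresentedGroup.mk _ r)) := fun r =>
      DFunLike.congr_fun (FreeGroup.ext_hom ((FreeGroup.lift im).comp (FreeGroup.map Sum.inl))
        ((fO.comp e.toMonoidHom).comp (PresentedGroup.mk _)) fun x => by simp [im]; rfl) r
    rw [this, hlw, e.apply_symm_apply]
  have hiC : ∀ j, FreeGroup.lift im (C j) = phiO (low 1 (u j)) := fun j => by simp [im, C]
  have hiW : ∀ s, FreeGroup.lift im (cw s) = phiO (low 1 s) := fun s => by
    conv_rhs => rw [← hword s]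
    exact DFunLike.congr_fun (FreeGroup.ext_hom ((FreeGroup.lift im).comp (FreeGroup.lift C))
      ((phiO.comp (low 1)).comp (FreeGroup.lift u))
      fun x => by simp only [MonoidHom.comp_apply, FreeGroup.lift_apply_of]; exact hiC x) (word s)
  have hiWw : FreeGroup.lift im Ww = fO π * VO * (fO π)⁻¹ := by
    show FreeGroup.lift im (Fg π * (cw wS * Fg (rot (iQ k) (iP k))) * (Fg π)⁻¹) = _
    rw [map_mul, map_mul, map_mul, map_inv, hiF, hiF, hiW]; rfl
  have hcomm : ∀ g s, (fO (blk g) : OG F k) * phiO (low 1 s) = phiO (low 1 s) * fO (blk g) := by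
    intro g s
    have hle := blk_range_le (F := F) (k := k) ((Subgroup.centralizer ({phiO (low 1 s)} : Set (OG F k))).comap fO)
      (fun i j t h => Subgroup.mem_centralizer_singleton_iff.mpr
        ((coreO (F := F) (k := k)).hh0_commute (fun v => (fO_comm i j t v h).1) (fun v => (fO_comm i j t v h).2) s))
    exact Subgroup.mem_centralizer_singleton_iff.mp (hle ⟨g, rfl⟩)
  have hrels : ∀ r ∈ (↑R' : Set (FreeGroup (κ ⊕ Fin 2))), FreeGroup.lift im r = 1 := by
    intro r hr
    rcases Finset.mem_union.1 (Finset.mem_coe.1 hr) with h | h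
    · rcases Finset.mem_union.1 h with h | h
      · rcases Finset.mem_union.1 h with h | h
        · obtain ⟨r, hr', rfl⟩ := Finset.mem_image.1 h
          rw [show FreeGroup.lift im (FreeGroup.map Sum.inl r) = fO (e (PresentedGroup.mk _ r)) from
            DFunLike.congr_fun (FreeGroup.ext_hom ((FreeGroup.lift im).comp (FreeGroup.map Sum.inl))
              ((fO.comp e.toMonoidHom).comp (PresentedGroup.mk _)) fun x => by simp [im]; rfl) r,
            PresentedGroup.one_of_mem (Finset.mem_coe.2 hr'), map_one, map_one]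
        · obtain ⟨⟨i, j⟩, -, rfl⟩ := Finset.mem_image.1 h
          rw [map_commutatorElement, hiF, hiC, commutatorElement_eq_one_iff_mul_comm]
          exact hcomm _ _
      · obtain ⟨j, -, rfl⟩ := Finset.mem_image.1 h
        rw [map_mul, map_inv, map_mul, map_mul, map_inv, hiC, hiWw, hiF, WO_conj hπ hc c0 cQ, inv_mul_cancel]
    · rw [Finset.mem_singleton.1 h, map_mul, hiF, hiW]
      refine H5.orth_ext fun x => funext fun a => ?_
      show act (fO dS) (act (phiO (low 1 (D2 (-1)))) x) a = x a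
      have hm := low_D2_mono (F := F) (k := k) (-1)
      have hne : ∀ j, (if j = iP k then ((-1 : Fˣ) : F) else if j = iQ k then (((-1 : Fˣ)⁻¹ : Fˣ) : F) else 1) ≠ 0 :=
        fun j => by split_ifs <;> first | exact Units.ne_zero _ | exact one_ne_zero
      rcases a with a | a
      · rw [fO_inl]
        simp only [dS, Matrix.mulVec, dotProduct, hm a _, Function.comp, (phiO_D2 _ _ _).1]
        rw [Finset.sum_eq_single a (fun b _ hb => by simp [Ne.symm hb]) (by simp)]
        simp only [Equiv.refl_apply, if_true, Core.dd]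
        by_cases hP : a = iP k
        · subst hP; simp [iP]
        by_cases hQ : a = iQ k
        · subst hQ; simp [iP, iQ, Fin.ext_iff]
        have : ¬ k + 2 ≤ a.val := by simp [iP, iQ, Fin.ext_iff] at hP hQ; omega
        simp [hP, hQ, this]
      · rw [fO_inr]
        simp only [dS, Matrix.mulVec, dotProduct, (hm.it hne) a _, Function.comp, (phiO_D2 _ _ _).2]
        rw [Finset.sum_eq_single a (fun b _ hb => by simp [Ne.symm hb]) (by simp)]
        simp only [Equiv.refl_apply, if_true, Core.dd]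
        by_cases hP : a = iP k
        · subst hP; simp [iP]
        by_cases hQ : a = iQ k
        · subst hQ; simp [iP, iQ, Fin.ext_iff]
        have : ¬ k + 2 ≤ a.val := by simp [iP, iQ, Fin.ext_iff] at hP hQ; omega
        simp [hP, hQ, this]
  let h := PresentedGroup.toGroup hrels
  have hh : ∀ r, h (π' r) = FreeGroup.lift im r := fun r => rfl
  have O : D.Over h := by
    have hA : ∀ g, h (f g) = fO g := fun g => by rw [← hf, hh, hiF]
    have hB : ∀ s, h (η s) = phiO (low 1 s) := fun s => by rw [← hcw, hh, hiW]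
    refine ⟨hA, fun t => ?_, fun t => ?_⟩
    · show h (φ (t12 t)) = _
      rw [← low_u01, hφ, hB]
    · show h (φ (t21 t)) = _
      rw [← low_u10, hφ, hB]
  have hinj : Function.Injective h := by
    rw [injective_iff_map_eq_one]
    intro x hx
    rcases O.ker_le (hDgen ▸ Subgroup.mem_top x) hx with h1 | ⟨g, hgm, rfl⟩
    · exact h1
    · have hgd : g = dS := by
        refine Subtype.ext (hgm.trans ?_)
        ext i j
        rw [low_D2_mono (F := F) (k := k) (-1) i j]
        by_cases hij : i = j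
        · subst hij
          rw [Matrix.diagonal_apply_eq, Equiv.refl_apply, if_pos rfl]
          by_cases hP : i = iP k
          · subst hP; simp [Core.dd, iP]
          by_cases hQ : i = iQ k
          · subst hQ; simp [Core.dd, iP, iQ, Fin.ext_iff]
          have : ¬ k + 2 ≤ i.val := by simp [iP, iQ, Fin.ext_iff] at hP hQ; omega
          simp [Core.dd, hP, hQ, this]
        · rw [Matrix.diagonal_apply_ne _ hij, Equiv.refl_apply, if_neg hij]
      subst hgd
      show f dS * φ (low 1 (D2 (-1))) = 1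
      rw [hφ, ← hf, ← hcw]
      exact relE
  have hr : h.range = commutator (OG F k) := by
    rw [MonoidHom.range_eq_map, ← hDgen]; exact O.image
  exact ⟨(MonoidHom.ofInjective hinj).trans (MulEquiv.subgroupCongr hr)⟩

end Cfsg.Agent.H78.CTD
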